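import Mathlib

/-!
# Elements of prime order acting on finite vector spaces: dimensions of invariant subspaces
-/

set_option autoImplicit false

namespace Cfsg.Agent.H61

open Module

theorem finrank_modEq {K V : Type*} [Field K] [Finite K] [AddCommGroup V] [Module K V] [Finite V] (f : V →ₗ[K] V)
    (r : ℕ) (hr : r.Prime) (hf : f ^ r = 1) (W : Submodule K V) (hW : ∀ w ∈ W, f w ∈ W) :
    (Nat.card K) ^ (finrank K W) ≡ (Nat.card K) ^ (finrank K ↥(W ⊓ LinearMap.ker (f - 1))) [MOD r] := by
  classical
  have hfact : Fact r.Prime := ⟨hr⟩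
  have hV : Module.Finite K V := Module.Finite.of_finite
  let fW : Function.End W := fun w => ⟨f w, hW w w.2⟩
  have hpow : ∀ (n : ℕ) (w : W), ((fW ^ n) w : V) = (f ^ n) (w : V) := by
    intro n
    induction n with
    | zero => intro w; rfl
    | succ n ih =>
      intro w
      rw [pow_succ, pow_succ, Module.End.mul_apply]
      exact ih (fW w)
  have hfW : fW ^ r ^ 1 = 1 := by
    rw [pow_one]
    funext w
    apply Subtype.ext
    rw [hpow, hf]
    rfl
  have : Fintype W := Fintype.ofFinite W
  have h1 := Equiv.Perm.card_fixedPoints_modEq (f := fW) (p := r) (n := 1) hfW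
  have h2 : Fintype.card W = (Nat.card K) ^ (finrank K W) := by
    rw [← Nat.card_eq_fintype_card, Module.natCard_eq_pow_finrank (K := K)]
  have h3 : Fintype.card (fW.fixedPoints) = (Nat.card K) ^ (finrank K ↥(W ⊓ LinearMap.ker (f - 1))) := by
    rw [← Nat.card_eq_fintype_card, ← Module.natCard_eq_pow_finrank (K := K)]
    apply Nat.card_congr
    refine ⟨fun w => ⟨w.1, w.1.2, ?_⟩, fun w => ⟨⟨w.1, w.2.1⟩, ?_⟩, fun w => rfl, fun w => rfl⟩
    · have h4 : fW w.1 = w.1 := w.2
      have h5 : f (w.1 : V) = w.1 := congrArg Subtype.val h4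
      change _ ∈ LinearMap.ker (f - 1)
      rw [LinearMap.mem_ker, LinearMap.sub_apply, Module.End.one_apply, h5, sub_self]
    · apply Subtype.ext
      have h4 : (w : V) ∈ LinearMap.ker (f - 1) := w.2.2
      rw [LinearMap.mem_ker, LinearMap.sub_apply, Module.End.one_apply, sub_eq_zero] at h4
      exact h4
  rwa [h2, h3] at h1

end Cfsg.Agent.H61
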