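import Mathlib
import Cfsg.Agent.Uni.SU

/-!
# A characteristic 5 module for `SU(3,4)` on which elements of order 13 act fixed point freely

`F` is a field with 16 elements, `h` the Hermitian form on `F³`, `ℓ : Fˣ → ℤ/5` a logarithm.
-/

set_option autoImplicit false
set_option linter.unusedSectionVars false

namespace Cfsg.Agent.H61

open Cfsg Cfsg.Agent.Uni Matrix Finset

variable {F : Type*} [Field F] [Fintype F]

theorem card_sq (hF : Fintype.card F = 16) : Fintype.card F = 4 ^ 2 := by rw [hF]; norm_num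

theorem exists_log (hF : Fintype.card F = 16) : ∃ ℓ : F → ZMod 5,
    (∀ x y, x ≠ 0 → y ≠ 0 → ℓ (x * y) = ℓ x + ℓ y) ∧ (∃ b, b ^ 5 = 1 ∧ ℓ b ≠ 0) := by
  classical
  have hcard : Nat.card Fˣ = 15 := by
    rw [card_units (card_sq hF)]
  have hd : 5 ∣ Nat.card Fˣ := by rw [hcard]; norm_num
  let e : Multiplicative (ZMod (Nat.card Fˣ)) ≃* Fˣ := zmodCyclicMulEquiv inferInstance
  let φ : ZMod (Nat.card Fˣ) →+* ZMod 5 := ZMod.castHom hd (ZMod 5)
  have hφ : Function.Surjective φ := ZMod.castHom_surjective hd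
  let L : Fˣ → ZMod 5 := fun x => φ (Multiplicative.toAdd (e.symm x))
  have hL : ∀ x y, L (x * y) = L x + L y := by
    intro x y
    simp only [L]
    rw [map_mul, toAdd_mul, map_add]
  let ℓ : F → ZMod 5 := fun x => if h : x ≠ 0 then L (Units.mk0 x h) else 0
  have hℓ : ∀ x (h : x ≠ 0), ℓ x = L (Units.mk0 x h) := fun x h => by simp only [ℓ]; rw [dif_pos h]
  refine ⟨ℓ, ?_, ?_⟩
  · intro x y hx hy
    rw [hℓ _ (mul_ne_zero hx hy), hℓ x hx, hℓ y hy, ← hL]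
    congr 1
    ext; rfl
  · obtain ⟨z, hz⟩ := hφ 1
    let u : Fˣ := e (Multiplicative.ofAdd z)
    have hu : L u = 1 := by
      simp only [L, u]
      rw [MulEquiv.symm_apply_apply, toAdd_ofAdd, hz]
    refine ⟨((u ^ 3 : Fˣ) : F), ?_, ?_⟩
    · rw [← Units.val_pow_eq_pow_val, ← pow_mul]
      have : u ^ (3 * 5) = 1 := by
        rw [show 3 * 5 = Nat.card Fˣ by rw [hcard]]
        exact pow_card_eq_one'
      rw [this, Units.val_one]
    · rw [hℓ _ (Units.ne_zero _)]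
      have : Units.mk0 ((u ^ 3 : Fˣ) : F) (Units.ne_zero _) = u ^ 3 := by ext; rfl
      rw [this, pow_succ, pow_two, hL, hL, hu]
      decide

/-- Isotropic orthogonal nonzero vectors of `F³` are proportional. -/
theorem prop_of_orth (hF : Fintype.card F = 16) {x y : Fin 3 → F} (hx0 : x ≠ 0) (hy0 : y ≠ 0)
    (hx : hermForm 3 F 4 x x = 0) (hy : hermForm 3 F 4 y y = 0) (hxy : hermForm 3 F 4 x y = 0) :
    ∃ c : F, c ≠ 0 ∧ x = c • y := by
  have hF' := card_sq hF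
  have hyx : hermForm 3 F 4 y x = 0 := (hermForm_eq_zero_comm hF').mp hxy
  rw [hermForm_def, Fin.sum_univ_three] at hx hy hxy hyx
  -- cross product
  set n0 := x 1 * y 2 - x 2 * y 1 with hn0
  set n1 := x 2 * y 0 - x 0 * y 2 with hn1
  set n2 := x 0 * y 1 - x 1 * y 0 with hn2
  have c0 : n0 ^ 4 = x 1 ^ 4 * y 2 ^ 4 - x 2 ^ 4 * y 1 ^ 4 := by rw [hn0, sub_pow_q hF', mul_pow, mul_pow]
  have c1 : n1 ^ 4 = x 2 ^ 4 * y 0 ^ 4 - x 0 ^ 4 * y 2 ^ 4 := by rw [hn1, sub_pow_q hF', mul_pow, mul_pow]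
  have c2 : n2 ^ 4 = x 0 ^ 4 * y 1 ^ 4 - x 1 ^ 4 * y 0 ^ 4 := by rw [hn2, sub_pow_q hF', mul_pow, mul_pow]
  -- n × x̄ = 0 and n × ȳ = 0
  have a0 : n1 * x 2 ^ 4 - n2 * x 1 ^ 4 = 0 := by
    rw [hn1, hn2]; linear_combination y 0 * hx - x 0 * hyx
  have a1 : n2 * x 0 ^ 4 - n0 * x 2 ^ 4 = 0 := by
    rw [hn2, hn0]; linear_combination y 1 * hx - x 1 * hyx
  have a2 : n0 * x 1 ^ 4 - n1 * x 0 ^ 4 = 0 := by
    rw [hn0, hn1]; linear_combination y 2 * hx - x 2 * hyx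
  have b0 : n1 * y 2 ^ 4 - n2 * y 1 ^ 4 = 0 := by
    rw [hn1, hn2]; linear_combination y 0 * hxy - x 0 * hy
  have b1 : n2 * y 0 ^ 4 - n0 * y 2 ^ 4 = 0 := by
    rw [hn2, hn0]; linear_combination y 1 * hxy - x 1 * hy
  have b2 : n0 * y 1 ^ 4 - n1 * y 0 ^ 4 = 0 := by
    rw [hn0, hn1]; linear_combination y 2 * hxy - x 2 * hy
  have e10 : n1 * n0 ^ 4 = 0 := by rw [c0]; linear_combination x 1 ^ 4 * b0 - y 1 ^ 4 * a0
  have e20 : n2 * n0 ^ 4 = 0 := by rw [c0]; linear_combination x 2 ^ 4 * b0 - y 2 ^ 4 * a0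
  have e01 : n0 * n1 ^ 4 = 0 := by rw [c1]; linear_combination x 0 ^ 4 * b1 - y 0 ^ 4 * a1
  have e21 : n2 * n1 ^ 4 = 0 := by rw [c1]; linear_combination x 2 ^ 4 * b1 - y 2 ^ 4 * a1
  have e02 : n0 * n2 ^ 4 = 0 := by rw [c2]; linear_combination x 0 ^ 4 * b2 - y 0 ^ 4 * a2
  have e12 : n1 * n2 ^ 4 = 0 := by rw [c2]; linear_combination x 1 ^ 4 * b2 - y 1 ^ 4 * a2
  have hz : ∀ a b : F, a * b ^ 4 = 0 → a = 0 ∨ b = 0 := by
    intro a b h
    rcases mul_eq_zero.mp h with h | h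
    · exact Or.inl h
    · exact Or.inr (pow_eq_zero_iff (by norm_num) |>.mp h)
  have hxe : ∀ i, x i ^ 4 = 0 → x i = 0 := fun i h => pow_eq_zero_iff (by norm_num) |>.mp h
  have hye : ∀ i, y i ^ 4 = 0 → y i = 0 := fun i h => pow_eq_zero_iff (by norm_num) |>.mp h
  have key : n0 = 0 ∧ n1 = 0 ∧ n2 = 0 := by
    by_cases h0 : n0 = 0
    · by_cases h1 : n1 = 0
      · refine ⟨h0, h1, ?_⟩
        by_contra h2
        have hx1 : x 1 = 0 := hxe 1 (by
          have : n2 * x 1 ^ 4 = 0 := by rw [h1] at a0; linear_combination -a0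
          exact (mul_eq_zero.mp this).resolve_left h2)
        have hx0' : x 0 = 0 := hxe 0 (by
          have : n2 * x 0 ^ 4 = 0 := by rw [h0] at a1; linear_combination a1
          exact (mul_eq_zero.mp this).resolve_left h2)
        apply h2
        rw [hn2, hx1, hx0']; ring
      · exfalso
        have h2 : n2 = 0 := (hz _ _ e21).resolve_right h1
        have hx2 : x 2 = 0 := hxe 2 (by
          have : n1 * x 2 ^ 4 = 0 := by rw [h2] at a0; linear_combination a0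
          exact (mul_eq_zero.mp this).resolve_left h1)
        have hx0' : x 0 = 0 := hxe 0 (by
          have : n1 * x 0 ^ 4 = 0 := by rw [h0] at a2; linear_combination -a2
          exact (mul_eq_zero.mp this).resolve_left h1)
        apply h1
        rw [hn1, hx2, hx0']; ring
    · exfalso
      have h1 : n1 = 0 := (hz _ _ e10).resolve_right h0
      have h2 : n2 = 0 := (hz _ _ e20).resolve_right h0
      have hx2 : x 2 = 0 := hxe 2 (by
        have : n0 * x 2 ^ 4 = 0 := by rw [h2] at a1; linear_combination -a1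
        exact (mul_eq_zero.mp this).resolve_left h0)
      have hx1 : x 1 = 0 := hxe 1 (by
        have : n0 * x 1 ^ 4 = 0 := by rw [h1] at a2; linear_combination a2
        exact (mul_eq_zero.mp this).resolve_left h0)
      apply h0
      rw [hn0, hx2, hx1]; ring
  obtain ⟨k0, k1, k2⟩ := key
  rw [hn0] at k0
  rw [hn1] at k1
  rw [hn2] at k2
  obtain ⟨i, hi⟩ := Function.ne_iff.mp hy0
  simp only [Pi.zero_apply] at hi
  have hprop : ∀ j, x j * y i = x i * y j := by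
    intro j
    fin_cases i <;> fin_cases j <;> simp only [Fin.zero_eta, Fin.mk_one, Fin.reduceFinMk]
    · linear_combination -k2
    · linear_combination k1
    · linear_combination k2
    · linear_combination -k0
    · linear_combination -k1
    · linear_combination k0
  have hc : x = (x i / y i) • y := by
    funext j
    rw [Pi.smul_apply, smul_eq_mul, div_mul_eq_mul_div, eq_div_iff hi, hprop j]
  refine ⟨x i / y i, ?_, hc⟩
  intro h
  rw [h, zero_smul] at hc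
  exact hx0 hc

/-- logarithms -/
structure IsLog (ℓ : F → ZMod 5) : Prop where
  mul : ∀ x y, x ≠ 0 → y ≠ 0 → ℓ (x * y) = ℓ x + ℓ y

theorem IsLog.pow {ℓ : F → ZMod 5} (h : IsLog ℓ) (x : F) (hx : x ≠ 0) : ℓ (x ^ 4) = - ℓ x := by
  have h1 : x ^ 4 = x * (x * (x * x)) := by ring
  have h5 : (5 : ZMod 5) = 0 := rfl
  rw [h1, h.mul _ _ hx (by simp [hx]), h.mul _ _ hx (by simp [hx]), h.mul _ _ hx hx]
  linear_combination (ℓ x) * h5

open Classical in
/-- The skew function on pairs of isotropic vectors. -/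
noncomputable def MM (ℓ : F → ZMod 5) (x y : Fin 3 → F) : ZMod 5 :=
  if hermForm 3 F 4 x y = 0 then (if h : ∃ c : F, c ≠ 0 ∧ x = c • y then ℓ h.choose else 0) else ℓ (hermForm 3 F 4 x y)

theorem MM_of_ne {ℓ : F → ZMod 5} {x y : Fin 3 → F} (h : hermForm 3 F 4 x y ≠ 0) :
    MM ℓ x y = ℓ (hermForm 3 F 4 x y) := by
  rw [MM, if_neg h]

theorem MM_smul_self (hF : Fintype.card F = 16) {ℓ : F → ZMod 5} {y : Fin 3 → F} {c : F} (hc : c ≠ 0) (hy0 : y ≠ 0)
    (hy : hermForm 3 F 4 y y = 0) : MM ℓ (c • y) y = ℓ c := by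
  have h0 : hermForm 3 F 4 (c • y) y = 0 := by rw [hermForm_smul_left, hy, mul_zero]
  have hex : ∃ c' : F, c' ≠ 0 ∧ c • y = c' • y := ⟨c, hc, rfl⟩
  rw [MM, if_pos h0, dif_pos hex]
  congr 1
  have h1 := hex.choose_spec.2
  have h2 : (c - hex.choose) • y = 0 := by rw [sub_smul, ← h1, sub_self]
  exact (sub_eq_zero.mp ((smul_eq_zero.mp h2).resolve_right hy0)).symm

/-- Nonzero isotropic vectors. -/
def Iso (x : Fin 3 → F) : Prop := x ≠ 0 ∧ hermForm 3 F 4 x x = 0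

theorem Iso.smul {x : Fin 3 → F} (hx : Iso x) {a : F} (ha : a ≠ 0) : Iso (a • x) :=
  ⟨smul_ne_zero ha hx.1, by rw [hermForm_smul_left, hermForm_smul_right, hx.2]; simp⟩

theorem Iso.pres {x : Fin 3 → F} (hF : Fintype.card F = 16) (hx : Iso x) {g : Matrix (Fin 3) (Fin 3) F} (hg : Pres 4 g) : Iso (g *ᵥ x) := by
  refine ⟨?_, by rw [hg]; exact hx.2⟩
  intro h
  apply hx.1
  apply hermForm_nondeg (card_sq hF)
  intro v
  rw [← hg, h, hermForm_zero_left]

/-- scaling -/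
theorem MM_smul (hF : Fintype.card F = 16) {ℓ : F → ZMod 5} (hℓ : IsLog ℓ) {x y : Fin 3 → F} (hx : Iso x) (hy : Iso y)
    {a b : F} (ha : a ≠ 0) (hb : b ≠ 0) : MM ℓ (a • x) (b • y) = MM ℓ x y + ℓ a - ℓ b := by
  have hF' := card_sq hF
  by_cases h0 : hermForm 3 F 4 x y = 0
  · obtain ⟨c, hc, rfl⟩ := prop_of_orth hF hx.1 hy.1 hx.2 hy.2 h0
    rw [MM_smul_self hF hc hy.1 hy.2]
    have h1 : a • c • y = (a * c / b) • (b • y) := by
      rw [smul_smul, smul_smul, div_mul_cancel₀ _ hb]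
    rw [h1, MM_smul_self hF (div_ne_zero (mul_ne_zero ha hc) hb) (hy.smul hb).1 (hy.smul hb).2]
    have h2 : ℓ (a * c / b * b) = ℓ (a * c / b) + ℓ b := hℓ.mul _ _ (div_ne_zero (mul_ne_zero ha hc) hb) hb
    rw [div_mul_cancel₀ _ hb, hℓ.mul _ _ ha hc] at h2
    linear_combination -h2
  · have h1 : hermForm 3 F 4 (a • x) (b • y) = a * (b ^ 4 * hermForm 3 F 4 x y) := by
      rw [hermForm_smul_left, hermForm_smul_right]
    have hb4 : b ^ 4 ≠ 0 := pow_ne_zero 4 hb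
    rw [MM_of_ne (by rw [h1]; exact mul_ne_zero ha (mul_ne_zero hb4 h0)), MM_of_ne h0, h1,
      hℓ.mul _ _ ha (mul_ne_zero hb4 h0), hℓ.mul _ _ hb4 h0, hℓ.pow b hb]
    ring

theorem MM_pres (hF : Fintype.card F = 16) {ℓ : F → ZMod 5} {x y : Fin 3 → F} (hx : Iso x) (hy : Iso y)
    {g : Matrix (Fin 3) (Fin 3) F} (hg : Pres 4 g) : MM ℓ (g *ᵥ x) (g *ᵥ y) = MM ℓ x y := by
  by_cases h0 : hermForm 3 F 4 x y = 0
  · obtain ⟨c, hc, rfl⟩ := prop_of_orth hF hx.1 hy.1 hx.2 hy.2 h0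
    rw [Matrix.mulVec_smul, MM_smul_self hF hc hy.1 hy.2, MM_smul_self hF hc (hy.pres hF hg).1 (hy.pres hF hg).2]
  · rw [MM_of_ne h0, MM_of_ne (by rw [hg]; exact h0), hg]

/-- antiunitary maps change the sign -/
theorem MM_anti (hF : Fintype.card F = 16) {ℓ : F → ZMod 5} (hℓ : IsLog ℓ) {x y : Fin 3 → F} (hx : Iso x) (hy : Iso y)
    (ψ : (Fin 3 → F) → (Fin 3 → F)) (hψ : ∀ u v, hermForm 3 F 4 (ψ u) (ψ v) = (hermForm 3 F 4 u v) ^ 4)
    (hψc : ∀ (c : F) v, ψ (c • v) = c ^ 4 • ψ v) (hψ0 : ψ y ≠ 0) : MM ℓ (ψ x) (ψ y) = - MM ℓ x y := by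
  by_cases h0 : hermForm 3 F 4 x y = 0
  · obtain ⟨c, hc, rfl⟩ := prop_of_orth hF hx.1 hy.1 hx.2 hy.2 h0
    rw [hψc, MM_smul_self hF hc hy.1 hy.2, MM_smul_self hF (pow_ne_zero 4 hc) hψ0 (by rw [hψ, hy.2]; simp), hℓ.pow c hc]
  · rw [MM_of_ne h0, MM_of_ne (by rw [hψ]; exact pow_ne_zero 4 h0), hψ, hℓ.pow _ h0]

end Cfsg.Agent.H61
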