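import Mathlib
import Cfsg.Agent.Uni.SU
import Cfsg.Agent.H61.InvSub
import Cfsg.Agent.H61.Unital

/-!
# Elements of order 13 in `SU(3,4)`: an antiunitary map inverting them and fixing their orbits on points
-/

set_option autoImplicit false
set_option linter.unusedSectionVars false

namespace Cfsg.Agent.H61

open Cfsg Cfsg.Agent.Uni Matrix Finset

variable {F : Type*} [Field F] [Fintype F]

theorem inv_sub13 (hF : Fintype.card F = 16) (g : Matrix (Fin 3) (Fin 3) F) (h13 : g ^ 13 = 1) (h1 : g ≠ 1)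
    (W : Submodule F (Fin 3 → F)) (hW : ∀ w ∈ W, g *ᵥ w ∈ W) : W = ⊥ ∨ W = ⊤ := by
  classical
  set f : (Fin 3 → F) →ₗ[F] (Fin 3 → F) := Matrix.toLin' g with hf
  have hfp : f ^ 13 = 1 := by
    rw [hf, ← Matrix.toLin'_pow, h13, Matrix.toLin'_one]; rfl
  have hfW : ∀ w ∈ W, f w ∈ W := fun w hw => by rw [hf, Matrix.toLin'_apply]; exact hW w hw
  have hQ : Nat.card F = 16 := by rw [Nat.card_eq_fintype_card, hF]
  have hp : Nat.Prime 13 := by norm_num
  have e1 := finrank_modEq f 13 hp hfp ⊤ (fun w _ => trivial)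
  have e2 := finrank_modEq f 13 hp hfp W hfW
  rw [hQ] at e1 e2
  rw [finrank_top, Module.finrank_fin_fun, top_inf_eq] at e1
  have hker : Module.finrank F (LinearMap.ker (f - 1)) = 0 := by
    have hle : Module.finrank F (LinearMap.ker (f - 1)) ≤ 3 := by
      have := Submodule.finrank_le (LinearMap.ker (f - 1))
      rwa [Module.finrank_fin_fun] at this
    interval_cases hk : Module.finrank F (LinearMap.ker (f - 1))
    · rfl
    · exact absurd e1 (by decide)
    · exact absurd e1 (by decide)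
    · exfalso
      have htop : LinearMap.ker (f - 1) = ⊤ := by
        apply Submodule.eq_top_of_finrank_eq
        rw [hk, Module.finrank_fin_fun]
      apply h1
      have hf1 : f = 1 := by
        rw [← sub_eq_zero]
        exact LinearMap.ker_eq_top.mp htop
      have : Matrix.toLin' g = Matrix.toLin' (1 : Matrix (Fin 3) (Fin 3) F) := by
        rw [Matrix.toLin'_one]; exact hf1
      exact Matrix.toLin'.injective this
  have hker' : LinearMap.ker (f - 1) = ⊥ := Submodule.finrank_eq_zero.mp hker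
  rw [hker', inf_bot_eq, finrank_bot] at e2
  have hWle : Module.finrank F W ≤ 3 := by
    have := Submodule.finrank_le W
    rwa [Module.finrank_fin_fun] at this
  interval_cases hk : Module.finrank F W
  · left; exact Submodule.finrank_eq_zero.mp hk
  · exact absurd e2 (by decide)
  · exact absurd e2 (by decide)
  · right
    apply Submodule.eq_top_of_finrank_eq
    rw [hk, Module.finrank_fin_fun]

theorem finite_domain_pow {R : Type*} [CommRing R] [IsDomain R] [Finite R] (x : R) (hx : x ≠ 0) :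
    x ^ (Nat.card R - 1) = 1 := by
  classical
  have : Fintype R := Fintype.ofFinite R
  letI : Field R := Fintype.fieldOfDomain R
  rw [Nat.card_eq_fintype_card]
  exact FiniteField.pow_card_sub_one_eq_one x hx

theorem exists_psi (hF : Fintype.card F = 16) (g : Matrix (Fin 3) (Fin 3) F) (h13 : g ^ 13 = 1) (h1 : g ≠ 1)
    (hg : Pres 4 g) : ∃ ψ : (Fin 3 → F) → (Fin 3 → F),
      (∀ u v, hermForm 3 F 4 (ψ u) (ψ v) = (hermForm 3 F 4 u v) ^ 4) ∧
      (∀ (c : F) v, ψ (c • v) = c ^ 4 • ψ v) ∧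
      (∀ v, ψ (g *ᵥ v) = g ^ 12 *ᵥ ψ v) ∧
      (∀ v, v ≠ 0 → ∃ (a : F) (n : ℕ), a ^ 5 = 1 ∧ ψ v = a • (g ^ n *ᵥ v)) := by
  classical
  have hF' : Fintype.card F = 4 ^ 2 := by rw [hF]; norm_num
  let u0 : Fin 3 → F := Pi.single 0 1
  have hu0 : u0 ≠ 0 := by
    intro h
    have := congrFun h 0
    simp [u0] at this
  let K := Algebra.adjoin F ({g} : Set (Matrix (Fin 3) (Fin 3) F))
  letI instK : CommRing K := Algebra.adjoinCommRingOfComm F (by
    intro a ha b hb
    rw [Set.mem_singleton_iff] at ha hb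
    rw [ha, hb])
  let gK : K := ⟨g, Algebra.subset_adjoin rfl⟩
  -- elements of K commute with g
  have hcomm : ∀ k : K, (k : Matrix (Fin 3) (Fin 3) F) * g = g * (k : Matrix (Fin 3) (Fin 3) F) := by
    intro k
    have := congrArg Subtype.val (mul_comm k gK)
    exact this
  -- nonzero elements are injective
  have hinj : ∀ k : K, k ≠ 0 → ∀ v, (k : Matrix (Fin 3) (Fin 3) F) *ᵥ v = 0 → v = 0 := by
    intro k hk v hv
    rcases inv_sub13 hF g h13 h1 (LinearMap.ker (Matrix.toLin' (k : Matrix (Fin 3) (Fin 3) F))) (by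
      intro w hw
      rw [LinearMap.mem_ker, Matrix.toLin'_apply] at hw ⊢
      rw [Matrix.mulVec_mulVec, hcomm, ← Matrix.mulVec_mulVec, hw, Matrix.mulVec_zero]) with h | h
    · have : v ∈ LinearMap.ker (Matrix.toLin' (k : Matrix (Fin 3) (Fin 3) F)) := by
        rw [LinearMap.mem_ker, Matrix.toLin'_apply, hv]
      rw [h] at this
      exact (Submodule.mem_bot F).mp this
    · exfalso
      apply hk
      apply Subtype.ext
      have h2 := LinearMap.ker_eq_top.mp h
      exact Matrix.toLin'.injective (by rw [h2]; exact (map_zero _).symm)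
  have hfin : Finite K := inferInstance
  have hchar : ∀ k l : K, (k + l) ^ 64 = k ^ 64 + l ^ 64 := by
    have h2F : CharP F 2 := by
      have : Fact (Nat.Prime 2) := ⟨Nat.prime_two⟩
      obtain ⟨n, hn⟩ : ∃ n : ℕ, Fintype.card F = 2 ^ n := ⟨4, by rw [hF]; norm_num⟩
      exact charP_of_card_eq_prime_pow hn
    have h2 : CharP K 2 := by
      have : Nontrivial K := ⟨⟨0, 1, fun h => by
        have := congrArg Subtype.val h
        have h3 := congrFun (congrFun this 0) 0
        simp at h3⟩⟩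
      exact charP_of_injective_algebraMap (algebraMap F K).injective 2
    intro k l
    have : Fact (Nat.Prime 2) := ⟨Nat.prime_two⟩
    exact add_pow_char_pow (p := 2) (n := 6) k l
  have hdom : IsDomain K := by
    have hnt : Nontrivial K := ⟨⟨0, 1, fun h => by
        have := congrArg Subtype.val h
        have h3 := congrFun (congrFun this 0) 0
        simp at h3⟩⟩
    have hnzd : NoZeroDivisors K := ⟨by
      intro a b hab
      by_cases ha : a = 0
      · exact Or.inl ha
      · right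
        apply Subtype.ext
        have hab' : (a : Matrix (Fin 3) (Fin 3) F) * (b : Matrix (Fin 3) (Fin 3) F) = 0 := congrArg Subtype.val hab
        ext i j
        have h1 := hinj a ha ((b : Matrix (Fin 3) (Fin 3) F) *ᵥ Pi.single j 1) (by
          rw [Matrix.mulVec_mulVec, hab', Matrix.zero_mulVec])
        have h2 := congrFun h1 i
        rw [Matrix.mulVec_single_one] at h2
        exact h2⟩
    exact NoZeroDivisors.to_isDomain K
  -- surjectivity
  have hsurj : ∀ x : Fin 3 → F, ∃ k : K, (k : Matrix (Fin 3) (Fin 3) F) *ᵥ u0 = x := by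
    let W : Submodule F (Fin 3 → F) :=
      { carrier := {x | ∃ k : K, (k : Matrix (Fin 3) (Fin 3) F) *ᵥ u0 = x}
        add_mem' := by
          rintro _ _ ⟨k, rfl⟩ ⟨l, rfl⟩
          exact ⟨k + l, Matrix.add_mulVec _ _ _⟩
        zero_mem' := ⟨0, Matrix.zero_mulVec _⟩
        smul_mem' := by
          rintro c _ ⟨k, rfl⟩
          exact ⟨c • k, Matrix.smul_mulVec _ _ _⟩ }
    rcases inv_sub13 hF g h13 h1 W (by
      rintro _ ⟨k, rfl⟩
      exact ⟨gK * k, by rw [Matrix.mulVec_mulVec]; rfl⟩) with h | h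
    · exfalso
      have : u0 ∈ W := ⟨1, Matrix.one_mulVec _⟩
      rw [h] at this
      exact hu0 ((Submodule.mem_bot F).mp this)
    · intro x
      have : x ∈ W := by rw [h]; trivial
      exact this
  have huniq : ∀ k l : K, (k : Matrix (Fin 3) (Fin 3) F) *ᵥ u0 = (l : Matrix (Fin 3) (Fin 3) F) *ᵥ u0 → k = l := by
    intro k l hkl
    by_contra hne
    apply hu0
    apply hinj (k - l) (sub_ne_zero.mpr hne)
    have : ((k - l : K) : Matrix (Fin 3) (Fin 3) F) = k - l := rfl
    rw [this, Matrix.sub_mulVec, hkl, sub_self]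
  have hcardK : Nat.card K = 4096 := by
    have e : K ≃ (Fin 3 → F) := Equiv.ofBijective (fun k : K => (k : Matrix (Fin 3) (Fin 3) F) *ᵥ u0)
      ⟨fun k l h => huniq k l h, hsurj⟩
    rw [Nat.card_congr e, Nat.card_eq_fintype_card, Fintype.card_fun, hF, Fintype.card_fin]
    norm_num
  have hpow : ∀ k : K, k ≠ 0 → k ^ 4095 = 1 := by
    intro k hk
    have := finite_domain_pow k hk
    rwa [hcardK] at this
  have hpow' : ∀ k : K, k ^ 4096 = k := by
    intro k
    by_cases hk : k = 0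
    · rw [hk]; simp
    · rw [pow_succ, hpow k hk, one_mul]
  have hg64 : gK ^ 64 = gK ^ 12 := by
    apply Subtype.ext
    change g ^ 64 = g ^ 12
    rw [show 64 = 13 * 4 + 12 by norm_num, pow_add, pow_mul, h13, one_pow, one_mul]
  have hF16 : ∀ a : F, a ^ 16 = a := by
    intro a
    have := FiniteField.pow_card a
    rwa [hF] at this
  -- the adjoint
  have hadj : ∀ k : K, ∀ x y : Fin 3 → F, hermForm 3 F 4 ((k : Matrix (Fin 3) (Fin 3) F) *ᵥ x) y =
      hermForm 3 F 4 x (((k ^ 64 : K) : Matrix (Fin 3) (Fin 3) F) *ᵥ y) := by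
    rintro ⟨k, hk⟩
    induction hk using Algebra.adjoin_induction with
    | mem k hk =>
      rw [Set.mem_singleton_iff] at hk
      subst hk
      intro x y
      have e : ((⟨k, by exact Algebra.subset_adjoin rfl⟩ : K) ^ 64 : K) = gK ^ 12 := hg64
      rw [e]
      have e2 : ((gK ^ 12 : K) : Matrix (Fin 3) (Fin 3) F) = k ^ 12 := rfl
      rw [e2]
      have e3 : y = k *ᵥ (k ^ 12 *ᵥ y) := by
        rw [Matrix.mulVec_mulVec, ← pow_succ', h13, Matrix.one_mulVec]
      conv_lhs => rw [e3]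
      exact hg x (k ^ 12 *ᵥ y)
    | algebraMap a =>
      intro x y
      have e : ((⟨algebraMap F _ a, Subalgebra.algebraMap_mem _ a⟩ : K) ^ 64 : K) = algebraMap F K (a ^ 64) := by
        rw [map_pow]; rfl
      rw [e]
      have e1 : ((algebraMap F K (a ^ 64) : K) : Matrix (Fin 3) (Fin 3) F) = algebraMap F _ (a ^ 64) := rfl
      rw [e1]
      have e2 : ∀ (b : F) (v : Fin 3 → F), (algebraMap F (Matrix (Fin 3) (Fin 3) F) b) *ᵥ v = b • v := by
        intro b v
        rw [Algebra.algebraMap_eq_smul_one, Matrix.smul_mulVec, Matrix.one_mulVec]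
      change hermForm 3 F 4 ((algebraMap F (Matrix (Fin 3) (Fin 3) F) a) *ᵥ x) y = _
      rw [e2, e2, hermForm_smul_left, hermForm_smul_right]
      congr 1
      have h16 := hF16 a
      calc a = ((a ^ 16)) ^ 16 := by rw [h16, h16]
        _ = (a ^ 64) ^ 4 := by ring
    | add k l hk hl ihk ihl =>
      intro x y
      have e : ((⟨k + l, Subalgebra.add_mem _ hk hl⟩ : K) ^ 64 : K) = (⟨k, hk⟩ : K) ^ 64 + (⟨l, hl⟩ : K) ^ 64 :=
        hchar ⟨k, hk⟩ ⟨l, hl⟩
      rw [e]
      change hermForm 3 F 4 ((k + l) *ᵥ x) y = hermForm 3 F 4 x ((((⟨k, hk⟩ : K) ^ 64 : K) + ((⟨l, hl⟩ : K) ^ 64 : K) : Matrix (Fin 3) (Fin 3) F) *ᵥ y)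
      rw [Matrix.add_mulVec, Matrix.add_mulVec, hermForm_add_left, hermForm_add_right hF']
      exact congrArg₂ (· + ·) (ihk x y) (ihl x y)
    | mul k l hk hl ihk ihl =>
      intro x y
      have e : ((⟨k * l, Subalgebra.mul_mem _ hk hl⟩ : K) ^ 64 : K) = (⟨l, hl⟩ : K) ^ 64 * (⟨k, hk⟩ : K) ^ 64 := by
        rw [← mul_pow, mul_comm (⟨l, hl⟩ : K)]; rfl
      rw [e]
      change hermForm 3 F 4 ((k * l) *ᵥ x) y = hermForm 3 F 4 x ((((⟨l, hl⟩ : K) ^ 64 : K) * ((⟨k, hk⟩ : K) ^ 64 : K) : Matrix (Fin 3) (Fin 3) F) *ᵥ y)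
      rw [← Matrix.mulVec_mulVec, ← Matrix.mulVec_mulVec]
      exact (ihk _ _).trans (ihl _ _)
  choose kk hkk using hsurj
  have hkk_eq : ∀ (k : K), kk ((k : Matrix (Fin 3) (Fin 3) F) *ᵥ u0) = k := fun k => huniq _ _ (hkk _)
  have hkk_smul : ∀ (c : F) x, kk (c • x) = c • kk x := by
    intro c x
    apply huniq
    rw [hkk]
    have : ((c • kk x : K) : Matrix (Fin 3) (Fin 3) F) = c • (kk x : Matrix (Fin 3) (Fin 3) F) := rfl
    rw [this, Matrix.smul_mulVec, hkk]
  have hkk_g : ∀ x, kk (g *ᵥ x) = gK * kk x := by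
    intro x
    apply huniq
    rw [hkk]
    have : ((gK * kk x : K) : Matrix (Fin 3) (Fin 3) F) = g * (kk x : Matrix (Fin 3) (Fin 3) F) := rfl
    rw [this, ← Matrix.mulVec_mulVec, hkk]
  refine ⟨fun x => (((kk x) ^ 64 : K) : Matrix (Fin 3) (Fin 3) F) *ᵥ u0, ?_, ?_, ?_, ?_⟩
  · intro u v
    simp only
    rw [hadj]
    have e1 : ((kk u) ^ 64) ^ 64 = kk u := by rw [← pow_mul]; exact hpow' _
    rw [e1, Matrix.mulVec_mulVec]
    have e2 : (kk u : Matrix (Fin 3) (Fin 3) F) * (((kk v) ^ 64 : K) : Matrix (Fin 3) (Fin 3) F) =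
        (((kk v) ^ 64 : K) : Matrix (Fin 3) (Fin 3) F) * (kk u : Matrix (Fin 3) (Fin 3) F) :=
      congrArg Subtype.val (mul_comm (kk u) ((kk v) ^ 64))
    rw [e2, ← Matrix.mulVec_mulVec, hkk, ← hadj, hkk]
    rw [hermForm_symm hF']
  · intro c v
    simp only
    rw [hkk_smul]
    have e1 : (c • kk v : K) ^ 64 = (c ^ 4) • (kk v) ^ 64 := by
      rw [smul_pow]
      congr 1
      calc c ^ 64 = (c ^ 16) ^ 4 := by ring
        _ = c ^ 4 := by rw [hF16]
    rw [e1]
    exact Matrix.smul_mulVec _ _ _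
  · intro v
    simp only
    rw [hkk_g, mul_pow, hg64]
    have : ((gK ^ 12 * (kk v) ^ 64 : K) : Matrix (Fin 3) (Fin 3) F) = g ^ 12 * (((kk v) ^ 64 : K) : Matrix (Fin 3) (Fin 3) F) := rfl
    rw [this, ← Matrix.mulVec_mulVec]
  · intro v hv
    simp only
    have hk0 : kk v ≠ 0 := by
      intro h
      apply hv
      rw [← hkk v, h]
      exact Matrix.zero_mulVec _
    set κ : K := (kk v) ^ 63 with hκ
    have hκ65 : κ ^ 65 = 1 := by rw [hκ, ← pow_mul]; exact hpow _ hk0
    have e1 : κ = κ ^ 26 * κ ^ 40 := by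
      rw [← pow_add, show 26 + 40 = 65 + 1 by norm_num, pow_succ, hκ65, one_mul]
    obtain ⟨b, hb5, hb1⟩ : ∃ b : F, b ^ 5 = 1 ∧ b ≠ 1 := by
      obtain ⟨ℓ, hℓ, b, hb, hb'⟩ := exists_log hF
      refine ⟨b, hb, ?_⟩
      rintro rfl
      apply hb'
      have := hℓ 1 1 one_ne_zero one_ne_zero
      rw [mul_one] at this
      have h3 : ℓ 1 + 0 = ℓ 1 + ℓ 1 := by rw [add_zero]; exact this
      exact (add_left_cancel h3).symm
    have hprimF : IsPrimitiveRoot b 5 := by
      have : Fact (Nat.Prime 5) := ⟨by norm_num⟩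
      have h3 : orderOf b = 5 := orderOf_eq_prime hb5 hb1
      rw [← h3]; exact IsPrimitiveRoot.orderOf b
    have hprimK : IsPrimitiveRoot (algebraMap F K b) 5 := hprimF.map_of_injective (algebraMap F K).injective
    obtain ⟨i, -, hi⟩ := hprimK.eq_pow_of_pow_eq_one (ξ := κ ^ 26) (by
      rw [← pow_mul, show 26 * 5 = 65 * 2 by norm_num, pow_mul, hκ65, one_pow])
    have hgK : IsPrimitiveRoot gK 13 := by
      have : Fact (Nat.Prime 13) := ⟨by norm_num⟩
      have h3 : orderOf gK = 13 := orderOf_eq_prime (Subtype.ext h13) (fun h => h1 (congrArg Subtype.val h))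
      rw [← h3]; exact IsPrimitiveRoot.orderOf gK
    obtain ⟨n, -, hn⟩ := hgK.eq_pow_of_pow_eq_one (ξ := κ ^ 40) (by
      rw [← pow_mul, show 40 * 13 = 65 * 8 by norm_num, pow_mul, hκ65, one_pow])
    refine ⟨b ^ i, n, by rw [← pow_mul, mul_comm, pow_mul, hb5, one_pow], ?_⟩
    have e2 : (kk v) ^ 64 = (b ^ i) • (gK ^ n * kk v) := by
      have e3 : (kk v) ^ 64 = κ * kk v := by rw [hκ, ← pow_succ]
      rw [e3, e1, ← hi, ← hn, Algebra.smul_def, map_pow, mul_assoc]
    rw [e2]
    have e4 : (((b ^ i) • (gK ^ n * kk v) : K) : Matrix (Fin 3) (Fin 3) F) = (b ^ i) • (g ^ n * (kk v : Matrix (Fin 3) (Fin 3) F)) := rfl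
    rw [e4, Matrix.smul_mulVec, ← Matrix.mulVec_mulVec, hkk]

end Cfsg.Agent.H61
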