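import Mathlib
import Cfsg.Agent.Uni.SU
import Cfsg.Agent.H61.Unital
import Cfsg.Agent.H61.Singer13
import Cfsg.Agent.H61.PrimeGraphExt

/-!
# The module for `SU(3,4)` in characteristic 5
-/

set_option autoImplicit false
set_option linter.unusedSectionVars false

namespace Cfsg.Agent.H61

open Cfsg Cfsg.Agent.Uni Matrix Finset

variable {F : Type*} [Field F] [Fintype F]

theorem pres_pow {g : Matrix (Fin 3) (Fin 3) F} (hg : Pres 4 g) (n : ℕ) : Pres 4 (g ^ n) := by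
  induction n with
  | zero => rw [pow_zero]; exact Pres.one
  | succ n ih => rw [pow_succ]; exact ih.mul hg

/-- powers of `g` indexed by `ZMod 13` -/
def gp (g : Matrix (Fin 3) (Fin 3) F) (k : ZMod 13) : Matrix (Fin 3) (Fin 3) F := g ^ k.val

theorem gp_natCast {g : Matrix (Fin 3) (Fin 3) F} (h13 : g ^ 13 = 1) (n : ℕ) : g ^ n = gp g (n : ZMod 13) := by
  unfold gp
  rw [ZMod.val_natCast]
  conv_lhs => rw [← Nat.div_add_mod n 13, pow_add, pow_mul, h13, one_pow, one_mul]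

theorem pres_gp {g : Matrix (Fin 3) (Fin 3) F} (hg : Pres 4 g) (k : ZMod 13) : Pres 4 (gp g k) := pres_pow hg _

theorem gp_add {g : Matrix (Fin 3) (Fin 3) F} (h13 : g ^ 13 = 1) (a b : ZMod 13) : gp g (a + b) = gp g a * gp g b := by
  have : gp g a * gp g b = g ^ (a.val + b.val) := by unfold gp; rw [pow_add]
  rw [this, gp_natCast h13]
  congr 1

/-- the orbit sum -/
noncomputable def Ssum (ℓ : F → ZMod 5) (g : Matrix (Fin 3) (Fin 3) F) (w u : Fin 3 → F) : ZMod 5 :=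
  ∑ k : ZMod 13, MM ℓ (gp g k *ᵥ w) u

theorem MM_pres_move (hF : Fintype.card F = 16) {ℓ : F → ZMod 5} {x y : Fin 3 → F} (hx : Iso x) (hy : Iso y)
    {g : Matrix (Fin 3) (Fin 3) F} (hg : Pres 4 g) (h13 : g ^ 13 = 1) (a b : ZMod 13) :
    MM ℓ (gp g a *ᵥ x) (gp g b *ᵥ y) = MM ℓ (gp g (a - b) *ᵥ x) y := by
  have h1 : gp g a *ᵥ x = gp g b *ᵥ (gp g (a - b) *ᵥ x) := by
    rw [Matrix.mulVec_mulVec, ← gp_add h13, add_sub_cancel]
  rw [h1, MM_pres hF (hx.pres hF (pres_gp hg _)) hy (pres_gp hg _)]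

theorem exists_Ssum (hF : Fintype.card F = 16) {ℓ : F → ZMod 5} (hℓ : IsLog ℓ) (g : Matrix (Fin 3) (Fin 3) F)
    (h13 : g ^ 13 = 1) (h1 : g ≠ 1) (hg : Pres 4 g) :
    ∃ a : (Fin 3 → F) → ZMod 5, ∀ w u, Iso w → Iso u → Ssum ℓ g w u = a w - a u := by
  classical
  obtain ⟨ψ, hψ1, hψ2, hψ3, hψ4⟩ := exists_psi hF g h13 h1 hg
  have hex : ∀ v : Fin 3 → F, ∃ p : F × ℕ, v ≠ 0 → p.1 ^ 5 = 1 ∧ ψ v = p.1 • (g ^ p.2 *ᵥ v) := by
    intro v
    by_cases hv : v = 0
    · exact ⟨(1, 0), fun h => absurd hv h⟩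
    · obtain ⟨a, n, ha, he⟩ := hψ4 v hv
      exact ⟨(a, n), fun _ => ⟨ha, he⟩⟩
  choose p hp using hex
  refine ⟨fun v => ℓ (p v).1, ?_⟩
  intro w u hw hu
  obtain ⟨hw5, hwe⟩ := hp w hw.1
  obtain ⟨hu5, hue⟩ := hp u hu.1
  have hne : ∀ a : F, a ^ 5 = 1 → a ≠ 0 := by
    rintro a ha rfl
    simp at ha
  have hψg : ∀ (n : ℕ) v, ψ (g ^ n *ᵥ v) = g ^ (12 * n) *ᵥ ψ v := by
    intro n
    induction n with
    | zero => intro v; simp
    | succ n ih =>
      intro v
      rw [pow_succ, ← Matrix.mulVec_mulVec, ih, hψ3, Matrix.mulVec_mulVec, ← pow_add]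
      congr 2
  -- anti
  have hanti : ∀ k : ZMod 13, MM ℓ (ψ (gp g k *ᵥ w)) (ψ u) = - MM ℓ (gp g k *ᵥ w) u := by
    intro k
    apply MM_anti hF hℓ (hw.pres hF (pres_pow hg _)) hu ψ hψ1 hψ2
    rw [hue]
    exact smul_ne_zero (hne _ hu5) (hu.pres hF (pres_pow hg _)).1
  have hcalc : ∀ k : ZMod 13, MM ℓ (ψ (gp g k *ᵥ w)) (ψ u) =
      MM ℓ (gp g (- k + ((p w).2 - (p u).2)) *ᵥ w) u + ℓ (p w).1 - ℓ (p u).1 := by
    intro k
    have e1 : ψ (gp g k *ᵥ w) = (p w).1 • (gp g (- k + (p w).2) *ᵥ w) := by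
      unfold gp
      rw [hψg, hwe, Matrix.mulVec_smul, Matrix.mulVec_mulVec, ← pow_add, gp_natCast h13]
      have e3 : ((12 * k.val + (p w).2 : ℕ) : ZMod 13) = - k + (p w).2 := by
        push_cast
        rw [ZMod.natCast_zmod_val]
        have : (12 : ZMod 13) = -1 := by decide
        rw [this]; ring
      rw [e3]
      rfl
    have e2 : ψ u = (p u).1 • (gp g ((p u).2) *ᵥ u) := by
      rw [hue, gp_natCast h13]
    rw [e1, e2, MM_smul hF hℓ (hw.pres hF (pres_gp hg _)) (hu.pres hF (pres_gp hg _)) (hne _ hw5) (hne _ hu5),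
      MM_pres_move hF hw hu hg h13]
    congr 4
    ring_nf
  have hsum1 : ∑ k : ZMod 13, MM ℓ (ψ (gp g k *ᵥ w)) (ψ u) = - Ssum ℓ g w u := by
    rw [Finset.sum_congr rfl (fun k _ => hanti k), Finset.sum_neg_distrib]; rfl
  have hsum2 : ∑ k : ZMod 13, MM ℓ (ψ (gp g k *ᵥ w)) (ψ u) = Ssum ℓ g w u + 13 * (ℓ (p w).1 - ℓ (p u).1) := by
    rw [Finset.sum_congr rfl (fun k _ => hcalc k)]
    simp only [add_sub_assoc]
    rw [Finset.sum_add_distrib, Finset.sum_const, Finset.card_univ, ZMod.card, nsmul_eq_mul]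
    congr 1
    unfold Ssum
    refine Fintype.sum_equiv ((Equiv.neg (ZMod 13)).trans (Equiv.addRight (((p w).2 : ZMod 13) - (p u).2))) _ _ (fun k => ?_)
    rfl
  have h5 : (5 : ZMod 5) = 0 := rfl
  rw [hsum1] at hsum2
  -- - S = S + 13 d
  linear_combination (2 : ZMod 5) * hsum2 + (Ssum ℓ g w u + 5 * (ℓ (p w).1 - ℓ (p u).1)) * h5

/-! ### the module -/

/-- matrices of elements of `SU` -/
abbrev mt (g : SU 3 F 4) : Matrix (Fin 3) (Fin 3) F := ((g : Matrix.SpecialLinearGroup (Fin 3) F) : Matrix (Fin 3) (Fin 3) F)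

theorem mt_mul (g h : SU 3 F 4) : mt (g * h) = mt g * mt h := rfl
theorem mt_one : mt (1 : SU 3 F 4) = 1 := rfl
theorem mt_pow (g : SU 3 F 4) (n : ℕ) : mt (g ^ n) = mt g ^ n := by
  induction n with
  | zero => rw [pow_zero, pow_zero]; rfl
  | succ n ih => rw [pow_succ, pow_succ, mt_mul, ih]

/-- isotropic vectors -/
abbrev XI (F : Type*) [Field F] : Type _ := {x : Fin 3 → F // Iso x}

/-- functions on pairs of isotropic vectors -/
abbrev EI (F : Type*) [Field F] : Type _ := XI F → XI F → ZMod 5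

def actX (hF : Fintype.card F = 16) (g : SU 3 F 4) (x : XI F) : XI F := ⟨mt g *ᵥ x.1, x.2.pres hF (SU_pres g)⟩

theorem actX_mul (hF : Fintype.card F = 16) (g h : SU 3 F 4) (x : XI F) : actX hF (g * h) x = actX hF g (actX hF h x) := by
  apply Subtype.ext
  change mt (g * h) *ᵥ x.1 = mt g *ᵥ (mt h *ᵥ x.1)
  rw [mt_mul, Matrix.mulVec_mulVec]

theorem actX_one (hF : Fintype.card F = 16) (x : XI F) : actX hF (1 : SU 3 F 4) x = x := by
  apply Subtype.ext
  exact Matrix.one_mulVec _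

def actE (hF : Fintype.card F = 16) (g : SU 3 F 4) (f : EI F) : EI F := fun u v => f (actX hF g⁻¹ u) (actX hF g⁻¹ v)

theorem actE_mul (hF : Fintype.card F = 16) (g h : SU 3 F 4) (f : EI F) : actE hF (g * h) f = actE hF g (actE hF h f) := by
  funext u v
  simp only [actE, _root_.mul_inv_rev, actX_mul]

theorem actE_one (hF : Fintype.card F = 16) (f : EI F) : actE hF (1 : SU 3 F 4) f = f := by
  funext u v
  simp only [actE, inv_one, actX_one]

theorem actE_add (hF : Fintype.card F = 16) (g : SU 3 F 4) (f f' : EI F) : actE hF g (f + f') = actE hF g f + actE hF g f' := rfl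

theorem actE_zero (hF : Fintype.card F = 16) (g : SU 3 F 4) : actE hF g (0 : EI F) = 0 := rfl

theorem actE_neg (hF : Fintype.card F = 16) (g : SU 3 F 4) (f : EI F) : actE hF g (-f) = -actE hF g f := rfl

theorem actE_sum (hF : Fintype.card F = 16) (g : SU 3 F 4) {ι : Type*} (s : Finset ι) (f : ι → EI F) :
    actE hF g (∑ i ∈ s, f i) = ∑ i ∈ s, actE hF g (f i) := by
  classical
  induction s using Finset.induction_on with
  | empty => simp [actE_zero]
  | insert a s ha ih => rw [Finset.sum_insert ha, Finset.sum_insert ha, actE_add, ih]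

/-- The functions killed by the orbit sums of all elements of order 13. -/
def VI (hF : Fintype.card F = 16) : AddSubgroup (EI F) where
  carrier := {f | ∀ g : SU 3 F 4, g ^ 13 = 1 → g ≠ 1 → ∑ k ∈ Finset.range 13, actE hF (g ^ k) f = 0}
  zero_mem' := by
    intro g _ _
    simp [actE_zero]
  add_mem' := by
    intro f f' hf hf' g h1 h2
    simp only [actE_add, Finset.sum_add_distrib]
    rw [hf g h1 h2, hf' g h1 h2, add_zero]
  neg_mem' := by
    intro f hf g h1 h2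
    simp only [actE_neg, Finset.sum_neg_distrib]
    rw [hf g h1 h2, neg_zero]

theorem actE_mem (hF : Fintype.card F = 16) (h : SU 3 F 4) {f : EI F} (hf : f ∈ VI hF) : actE hF h f ∈ VI hF := by
  intro g h1 h2
  have h3 := hf (h⁻¹ * g * h) (by
    have : (h⁻¹ * g * h) ^ 13 = h⁻¹ * g ^ 13 * h := by
      have := conj_pow (i := 13) (a := h⁻¹) (b := g)
      rwa [inv_inv] at this
    rw [this, h1]; group) (by
    intro e
    apply h2
    have : g = h * (h⁻¹ * g * h) * h⁻¹ := by group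
    rw [this, e]; group)
  have h4 := congrArg (actE hF h) h3
  rw [actE_zero, actE_sum] at h4
  rw [← h4]
  apply Finset.sum_congr rfl
  intro k _
  rw [← actE_mul, ← actE_mul]
  congr 1
  have : (h⁻¹ * g * h) ^ k = h⁻¹ * g ^ k * h := by
    have := conj_pow (i := k) (a := h⁻¹) (b := g)
    rwa [inv_inv] at this
  rw [this]; group

/-- the action of `SU(3,4)` on the module -/
@[instance_reducible] def actV (hF : Fintype.card F = 16) : DistribMulAction (SU 3 F 4) (VI hF) where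
  smul g f := ⟨actE hF g f.1, actE_mem hF g f.2⟩
  one_smul f := Subtype.ext (actE_one hF f.1)
  mul_smul g h f := Subtype.ext (actE_mul hF g h f.1)
  smul_zero g := Subtype.ext (actE_zero hF g)
  smul_add g f f' := Subtype.ext (actE_add hF g f.1 f'.1)

/-- the generating functions -/
noncomputable def genF (ℓ : F → ZMod 5) (w w' : XI F) : EI F := fun u v =>
  MM ℓ w.1 u.1 - MM ℓ w.1 v.1 - MM ℓ w'.1 u.1 + MM ℓ w'.1 v.1

theorem MM_move (hF : Fintype.card F = 16) {ℓ : F → ZMod 5} (w u : XI F) (g : SU 3 F 4) :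
    MM ℓ w.1 (actX hF g⁻¹ u).1 = MM ℓ (mt g *ᵥ w.1) u.1 := by
  rw [← MM_pres hF w.2 (actX hF g⁻¹ u).2 (SU_pres g)]
  congr 1
  change mt g *ᵥ (mt g⁻¹ *ᵥ u.1) = u.1
  rw [Matrix.mulVec_mulVec, ← mt_mul, mul_inv_cancel, mt_one, Matrix.one_mulVec]

theorem genF_mem (hF : Fintype.card F = 16) {ℓ : F → ZMod 5} (hℓ : IsLog ℓ) (w w' : XI F) : genF ℓ w w' ∈ VI hF := by
  intro g h1 h2
  have h13 : mt g ^ 13 = 1 := by rw [← mt_pow, h1]; rfl
  have hne : mt g ≠ 1 := fun h => h2 (SU_ext h)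
  obtain ⟨a, ha⟩ := exists_Ssum hF hℓ (mt g) h13 hne (SU_pres g)
  have hs : ∀ w u : XI F, ∑ k ∈ Finset.range 13, MM ℓ w.1 (actX hF (g ^ k)⁻¹ u).1 = a w.1 - a u.1 := by
    intro w u
    rw [← ha w.1 u.1 w.2 u.2]
    unfold Ssum gp
    rw [Finset.sum_congr rfl (fun k _ => by rw [MM_move hF w u, mt_pow])]
    rw [← Fin.sum_univ_eq_sum_range (fun k => MM ℓ (mt g ^ k *ᵥ w.1) u.1) 13]
    rfl
  funext u v
  simp only [Finset.sum_apply, actE, genF, Pi.zero_apply]
  rw [Finset.sum_add_distrib, Finset.sum_sub_distrib, Finset.sum_sub_distrib, hs, hs, hs, hs]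
  ring

theorem fix13 (hF : Fintype.card F = 16) (f : EI F) (hf : f ∈ VI hF) (g : SU 3 F 4) (h1 : g ^ 13 = 1) (h2 : g ≠ 1)
    (hfix : actE hF g f = f) : f = 0 := by
  have h3 : ∀ k : ℕ, actE hF (g ^ k) f = f := by
    intro k
    induction k with
    | zero => rw [pow_zero]; exact actE_one hF f
    | succ k ih => rw [pow_succ, actE_mul, hfix, ih]
  have h4 := hf g h1 h2
  rw [Finset.sum_congr rfl (fun k _ => h3 k), Finset.sum_const, Finset.card_range] at h4
  funext u v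
  have h5 := congrFun (congrFun h4 u) v
  simp only [Pi.smul_apply, nsmul_eq_mul, Pi.zero_apply] at h5 ⊢
  have h6 : (5 : ZMod 5) = 0 := rfl
  push_cast at h5
  linear_combination 2 * h5 - 5 * f u v * h6

end Cfsg.Agent.H61
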